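import Mathlib
import Cfsg.Agent.H2.SubnormalFam

/-!
A generalisation of Wielandt's zipper lemma (Flavell; Guralnick–Tracey): if `A` lies in no proper
normal subgroup of `G` and one maximal subgroup `M` contains every proper `K` in which `A` lies in
no proper normal subgroup, then `M` is the only maximal subgroup containing `A`.
-/

set_option autoImplicit false

namespace Cfsg.Agent.H3x.Fl

open Subgroup Cfsg.Agent.H2
open scoped Pointwise

variable {G : Type*} [Group G]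

/-- `A ≤ K` and no proper normal subgroup of `K` contains `A`. -/
def Full (A K : Subgroup G) : Prop :=
  A ≤ K ∧ ∀ X : Subgroup G, A ≤ X → X ≤ K → K ≤ normalizer (X : Set G) → X = K

theorem Full.eq_of_sn {A B K : Subgroup G} (h : Full A K) (hAB : A ≤ B) (hs : SN K B) : B = K := by
  rcases hs.eq_or_exists_normal with h1 | ⟨X, h1, h2, h3⟩
  · exact h1
  · exact absurd (h.2 X (hAB.trans h1) h2.le h3) h2.ne

theorem Full.trans {A B K : Subgroup G} (h1 : Full A B) (h2 : Full B K) : Full A K := by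
  refine ⟨h1.1.trans h2.1, fun X hA hX hn => h2.2 X ?_ hX hn⟩
  have hs : SN B (X ⊓ B) := by
    have := (SN.of_normal hX hn).inf B
    rwa [inf_of_le_right h2.1] at this
  have := h1.eq_of_sn (le_inf hA h1.1) hs
  rw [← this]; exact inf_le_left

theorem Full.mono {A B K : Subgroup G} (h : Full A K) (hAB : A ≤ B) (hBK : B ≤ K) : Full B K :=
  ⟨hBK, fun X h1 h2 h3 => h.2 X (hAB.trans h1) h2 h3⟩

theorem exists_full [Finite G] {A H : Subgroup G} (h : A ≤ H) : ∃ B, SN H B ∧ Full A B := by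
  obtain ⟨B, hB, hmin⟩ := WellFounded.has_min wellFounded_lt {B | SN H B ∧ A ≤ B} ⟨H, SN.top, h⟩
  refine ⟨B, hB.1, hB.2, fun X h1 h2 h3 => ?_⟩
  by_contra hne
  exact hmin X ⟨hB.1.trans (SN.of_normal h2 h3), h1⟩ (lt_of_le_of_ne h2 hne)

theorem inv_conj (g : G) (A : Subgroup G) : MulAut.conj g⁻¹ • MulAut.conj g • A = A := by
  rw [conj_smul_conj_smul, inv_mul_cancel, conj_one_smul]

theorem conj_inv (g : G) (A : Subgroup G) : MulAut.conj g • MulAut.conj g⁻¹ • A = A := by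
  rw [conj_smul_conj_smul, mul_inv_cancel, conj_one_smul]

theorem conj_fix {g : G} {H : Subgroup G} (hg : g ∈ H) : MulAut.conj g • H = H :=
  mem_normalizer_iff_conj_smul.1 (le_normalizer hg)

theorem Full.conj_top {A : Subgroup G} (h : Full A ⊤) (g : G) : Full (MulAut.conj g • A) ⊤ := by
  refine ⟨le_top, fun X h1 _ h3 => h.2 X ?_ le_top h3⟩
  have := conj_smul_mono g⁻¹ h1
  rwa [inv_conj, mem_normalizer_iff_conj_smul.1 (h3 (mem_top _))] at this

theorem coatom_conj {H : Subgroup G} (h : IsCoatom H) (g : G) : IsCoatom (MulAut.conj g • H) :=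
  ((MulEquiv.mapSubgroup (MulAut.conj g)).isCoatom_iff H).2 h

theorem Full.norm_ne {A X : Subgroup G} (h : Full A ⊤) (h1 : A ≤ X) (h2 : X ≠ ⊤) :
    normalizer (X : Set G) ≠ ⊤ := fun e => h2 (h.2 X h1 le_top e.ge)

theorem Full.norm_coatom {A M : Subgroup G} (h : Full A ⊤) (h1 : A ≤ M) (h2 : IsCoatom M) :
    normalizer (M : Set G) = M := by
  rcases h2.le_iff.1 (le_normalizer (H := M)) with e | e
  · exact absurd e (h.norm_ne h1 h2.1)
  · exact e

theorem exists_coatom [Finite G] {X : Subgroup G} (h : X ≠ ⊤) : ∃ H, IsCoatom H ∧ X ≤ H :=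
  (eq_top_or_exists_le_coatom X).resolve_left h

/-- the statement of the theorem for one subgroup -/
def Zs (A : Subgroup G) : Prop :=
  Full A ⊤ → ∀ M, IsCoatom M → (∀ K, K ≠ ⊤ → Full A K → K ≤ M) → ∀ H, IsCoatom H → A ≤ H → H = M

/-- conjugates of `A` -/
def Cj (A B : Subgroup G) : Prop := ∃ g : G, B = MulAut.conj g • A

theorem Cj.refl (A : Subgroup G) : Cj A A := ⟨1, (conj_one_smul A).symm⟩

theorem Cj.conj {A B : Subgroup G} (h : Cj A B) (g : G) : Cj A (MulAut.conj g • B) := by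
  obtain ⟨k, rfl⟩ := h
  exact ⟨g * k, conj_smul_conj_smul _ _ _⟩

theorem Cj.card {A B : Subgroup G} (h : Cj A B) : Nat.card B = Nat.card A := by
  obtain ⟨k, rfl⟩ := h
  exact card_conj_smul _ _

theorem Cj.full {A B : Subgroup G} (h : Cj A B) (hA : Full A ⊤) : Full B ⊤ := by
  obtain ⟨k, rfl⟩ := h
  exact hA.conj_top k

theorem card_lt [Finite G] {A B : Subgroup G} (h : A ≤ B) (hne : A ≠ B) :
    Nat.card A < Nat.card B := by
  by_contra hc
  exact hne (eq_of_le_of_card_ge h (not_lt.1 hc))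

theorem uniq [Finite G] {A : Subgroup G} (hA : Full A ⊤)
    (ih : ∀ X : Subgroup G, Nat.card A < Nat.card X → Zs X) {B B' H : Subgroup G}
    (hB : Cj A B) (hB' : Cj A B') (hne : B ≠ B') (hH : IsCoatom H) (hle : B ⊔ B' ≤ H)
    (hsn : ∀ H', IsCoatom H' → B ⊔ B' ≤ H' → H' ≠ H → SN H' B ∧ SN H' B') :
    ∀ H', IsCoatom H' → B ⊔ B' ≤ H' → H' = H := by
  refine ih (B ⊔ B') ?_ ((hB.full hA).mono le_sup_left le_top) H hH ?_
  · rw [← hB.card]
    refine card_lt le_sup_left fun e => hne ?_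
    have h1 : B' ≤ B := by rw [e]; exact le_sup_right
    exact (eq_of_le_of_card_ge h1 (by rw [hB.card, hB'.card])).symm
  · intro K hK hF
    obtain ⟨H', h1, h2⟩ := exists_coatom hK
    by_cases e : H' = H
    · exact e ▸ h2
    · obtain ⟨s1, s2⟩ := hsn H' h1 (hF.1.trans h2) e
      have := hF.eq_of_sn le_rfl ((s1.sup s2).mono hF.1 h2)
      rw [← this]; exact hle

/-- a subnormal, non-normal subgroup is normalised by another conjugate -/
theorem exists_nb [Finite G] {A H : Subgroup G} (hs : SN H A) (hn : ¬ H ≤ normalizer (A : Set G)) :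
    ∃ B, Cj A B ∧ B ≠ A ∧ B ≤ H ∧ B ≤ normalizer (A : Set G) := by
  obtain ⟨X, h1, h2, h3⟩ := exists_mem_normalizer_sSup (H := H) {B | Cj A B ∧ SN H B} {A}
    (fun U hU => hU.2) (fun U hU g hg => ⟨hU.1.conj g, hU.2.conj_of_mem hg⟩) (by
      refine ⟨fun U hU => ?_, fun hc => hn fun g hg => ?_⟩
      · rw [Set.mem_singleton_iff.1 hU]; exact ⟨Cj.refl A, hs⟩
      · exact mem_normalizer_iff_conj_smul.2
          (hc (show MulAut.conj g • A ∈ {B | Cj A B ∧ SN H B} from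
            ⟨(Cj.refl A).conj g, hs.conj_of_mem hg⟩)))
  rw [sSup_singleton] at h3
  exact ⟨X, h1.1, h2, h1.2.le, h3⟩

/-- `H` is a maximal subgroup containing `B` in which `B` is not subnormal -/
def Rl (B H : Subgroup G) : Prop := IsCoatom H ∧ B ≤ H ∧ ¬ SN H B

theorem Rl.conj {B H : Subgroup G} (h : Rl B H) (g : G) :
    Rl (MulAut.conj g • B) (MulAut.conj g • H) := by
  refine ⟨coatom_conj h.1 g, conj_smul_mono g h.2.1, fun hs => h.2.2 ?_⟩
  have := hs.conj g⁻¹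
  rwa [inv_conj, inv_conj] at this

section main

variable [Finite G] {A : Subgroup G} (hA : Full A ⊤)
  (ih : ∀ X : Subgroup G, Nat.card A < Nat.card X → Zs X)
  (r2 : ∀ B H H', Cj A B → Rl B H → Rl B H' → H = H')

include r2 in
theorem sn_of_ne {B M H : Subgroup G} (hB : Cj A B) (hM : Rl B M) (hH : IsCoatom H) (hle : B ≤ H)
    (hne : H ≠ M) : SN H B := by
  by_contra hc
  exact hne (r2 B H M hB ⟨hH, hle, hc⟩ hM)

include hA ih r2 in
theorem adj1 {B B' M M' H₁ H₂ : Subgroup G} (hB : Cj A B) (hB' : Cj A B') (hne : B ≠ B')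
    (hM : Rl B M) (hM' : Rl B' M') (h1 : IsCoatom H₁) (h2 : IsCoatom H₂) (h12 : H₁ ≠ H₂)
    (l1 : B ⊔ B' ≤ H₁) (l2 : B ⊔ B' ≤ H₂) : B ≤ M' ∧ M ≠ M' := by
  have key : ∀ H, IsCoatom H → B ⊔ B' ≤ H →
      (∀ H', IsCoatom H' → B ⊔ B' ≤ H' → H' ≠ H → H' ≠ M ∧ H' ≠ M') → False := by
    intro H hH hle hh
    have u := uniq hA ih hB hB' hne hH hle fun H' a b c =>
      ⟨sn_of_ne r2 hB hM a (le_sup_left.trans b) (hh H' a b c).1,
        sn_of_ne r2 hB' hM' a (le_sup_right.trans b) (hh H' a b c).2⟩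
    exact h12 ((u H₁ h1 l1).trans (u H₂ h2 l2).symm)
  constructor
  · by_contra hc
    by_cases hb : B ⊔ B' ≤ M
    · exact key M hM.1 hb fun H' _ b c => ⟨c, fun e => hc (le_sup_left.trans (e ▸ b))⟩
    · exact key H₁ h1 l1 fun H' _ b _ =>
        ⟨fun e => hb (e ▸ b), fun e => hc (le_sup_left.trans (e ▸ b))⟩
  · intro e
    exact key M hM.1 (sup_le hM.2.1 (e ▸ hM'.2.1)) fun H' _ _ c => ⟨c, fun e' => c (e'.trans e.symm)⟩

include hA r2 in
theorem norm_le {B M : Subgroup G} (hB : Cj A B) (hM : Rl B M) : normalizer (B : Set G) ≤ M := by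
  intro g hg
  have h1 := hM.conj g
  rw [mem_normalizer_iff_conj_smul.1 hg] at h1
  have h2 := r2 B _ _ hB h1 hM
  rw [← (hB.full hA).norm_coatom hM.2.1 hM.1]
  exact mem_normalizer_iff_conj_smul.2 h2

include hA ih r2 in
theorem half (r1 : ∀ B, Cj A B → ∃ H, Rl B H) {B B' M M' : Subgroup G} (hB : Cj A B)
    (hB' : Cj A B') (hM : Rl B M) (hM' : Rl B' M') (hMM : M ≠ M') (l1 : B ≤ M') (l2 : B' ≤ M) :
    normalizer ((sSup {X | Cj A X ∧ X ≤ M ⊓ M'} : Subgroup G) : Set G) ≤ M ∧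
      ∃ C, ¬ C ≤ M' ∧ C ≤ normalizer ((sSup {X | Cj A X ∧ X ≤ M ⊓ M'} : Subgroup G) : Set G) := by
  set K : Set (Subgroup G) := {X | Cj A X ∧ X ≤ M ⊓ M'} with hK
  set K' : Set (Subgroup G) := {X | (Cj A X ∧ X ≤ M ⊓ M') ∧ X ≠ B} with hK'
  have sB' : SN M B' := sn_of_ne r2 hB' hM' hM.1 l2 hMM
  have hBB' : B' ≠ B := fun e => hM.2.2 (e ▸ sB')
  have hB'K : B' ∈ K' := ⟨⟨hB', le_inf l2 hM'.2.1⟩, hBB'⟩
  have hsub : ∀ X ∈ K', SN M X := by
    intro X hX
    obtain ⟨MX, hMX⟩ := r1 X hX.1.1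
    have := adj1 hA ih r2 hB hX.1.1 hX.2.symm hM hMX hM.1 hM'.1 hMM
      (sup_le hM.2.1 (hX.1.2.trans inf_le_left)) (sup_le l1 (hX.1.2.trans inf_le_right))
    exact sn_of_ne r2 hX.1.1 hMX hM.1 (hX.1.2.trans inf_le_left) this.2
  have hD0 : sSup K' ≤ M ⊓ M' := sSup_le fun X hX => hX.1.2
  have hD : sSup K = B ⊔ sSup K' := by
    refine le_antisymm (sSup_le fun X hX => ?_) (sup_le (le_sSup ⟨hB, le_inf hM.2.1 l1⟩)
      (sSup_le fun X hX => le_sSup hX.1))
    by_cases e : X = B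
    · exact e ▸ le_sup_left
    · exact (le_sSup (show X ∈ K' from ⟨hX, e⟩)).trans le_sup_right
  have hi : ∀ g ∈ M, g ∈ normalizer ((sSup K' : Subgroup G) : Set G) → MulAut.conj g • B = B := by
    intro g hg hn
    have a1 : MulAut.conj g • B' ≤ M ⊓ M' :=
      (conj_smul_le_of_mem_normalizer (le_sSup hB'K) hn).trans hD0
    have a2 : B ≠ MulAut.conj g • B' := fun e => hM.2.2 (e ▸ sB'.conj_of_mem hg)
    have a3 := adj1 hA ih r2 hB (hB'.conj g) a2 hM (hM'.conj g) hM.1 hM'.1 hMM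
      (sup_le hM.2.1 (a1.trans inf_le_left)) (sup_le l1 (a1.trans inf_le_right))
    by_contra hc
    have a4 := hM.conj g
    rw [conj_fix hg] at a4
    exact (adj1 hA ih r2 hB (hB.conj g) (Ne.symm hc) hM a4 hM.1 (coatom_conj hM'.1 g) a3.2
      (sup_le hM.2.1 a4.2.1) (sup_le a3.1 (conj_smul_mono g l1))).2 rfl
  obtain ⟨C, c1, c2, c3⟩ := exists_mem_normalizer_sSup (H := M) {X | Cj A X ∧ SN M X} K'
    (fun U hU => hU.2) (fun U hU g hg => ⟨hU.1.conj g, hU.2.conj_of_mem hg⟩) (by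
      refine ⟨fun U hU => ⟨hU.1.1, hsub U hU⟩, fun hc => hM.2.2 (SN.of_normal hM.2.1 ?_)⟩
      intro g hg
      refine mem_normalizer_iff_conj_smul.2 (hi g hg (mem_normalizer_of_conj_smul_le ?_))
      rw [conj_smul_sSup]
      refine sSup_le ?_
      rintro _ ⟨X, hX, rfl⟩
      exact le_sSup (hc (show MulAut.conj g • X ∈ {X | Cj A X ∧ SN M X} from
        ⟨hX.1.1.conj g, (hsub X hX).conj_of_mem hg⟩)))
  have hCB : C ≠ B := fun e => hM.2.2 (e ▸ c1.2)
  have hCM' : ¬ C ≤ M' := fun h => c2 ⟨⟨c1.1, le_inf c1.2.le h⟩, hCB⟩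
  have hCD : C ≤ normalizer ((sSup K : Subgroup G) : Set G) := by
    intro g hg
    rw [hD, mem_normalizer_iff_conj_smul, smul_sup, hi g (c1.2.le hg) (c3 hg),
      mem_normalizer_iff_conj_smul.1 (c3 hg)]
  refine ⟨?_, C, hCM', hCD⟩
  have hDM : sSup K ≤ M := sSup_le fun X hX => hX.2.trans inf_le_left
  have hB'D : B' ≤ sSup K := le_sSup hB'K.1
  obtain ⟨H, hH, hle⟩ := exists_coatom ((hB'.full hA).norm_ne hB'D
    (fun e => hM.1.1 (top_le_iff.1 (e ▸ hDM))))
  by_cases e : H = M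
  · exact e ▸ hle
  · exfalso
    obtain ⟨MC, hMC⟩ := r1 C c1.1
    exact hCM' (adj1 hA ih r2 c1.1 hB' (fun e' => hCM' (e' ▸ hM'.2.1)) hMC hM' hH hM.1 e
      (sup_le (hCD.trans hle) (hB'D.trans (le_normalizer.trans hle))) (sup_le c1.2.le l2)).1

end main

theorem zs_step [Finite G] {A : Subgroup G}
    (ih : ∀ X : Subgroup G, Nat.card A < Nat.card X → Zs X) : Zs A := by
  intro hA M hM hY H₀ hH₀ hle
  by_contra hne
  have hAM : A ≤ M := hY A (fun e => hH₀.1 (top_le_iff.1 (e ▸ hle)))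
    ⟨le_rfl, fun X h1 h2 _ => le_antisymm h2 h1⟩
  have hsn : ∀ H, IsCoatom H → A ≤ H → H ≠ M → SN H A := by
    intro H hH h1 h2
    obtain ⟨B, s, f⟩ := exists_full h1
    by_cases e : A = B
    · exact e ▸ s
    · exact absurd (ih B (card_lt f.1 e) (hA.mono f.1 le_top) M hM
        (fun K k1 k2 => hY K k1 (f.trans k2)) H hH s.le) h2
  have hsn' : ∀ (g : G) H, IsCoatom H → MulAut.conj g • A ≤ H → H ≠ MulAut.conj g • M →
      SN H (MulAut.conj g • A) := by
    intro g H hH h1 h2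
    have h3 := conj_smul_mono g⁻¹ h1
    rw [inv_conj] at h3
    have := (hsn _ (coatom_conj hH g⁻¹) h3 (fun e => h2 (by rw [← e, conj_inv]))).conj g
    rwa [conj_inv] at this
  by_cases hc : SN M A
  · have all : ∀ B H, Cj A B → IsCoatom H → B ≤ H → SN H B := by
      rintro _ H ⟨g, rfl⟩ hH h1
      by_cases e : H = MulAut.conj g • M
      · rw [e]; exact hc.conj g
      · exact hsn' g H hH h1 e
    obtain ⟨N, hN, hNle⟩ := exists_coatom (hA.norm_ne le_rfl
      (fun e => hM.1 (top_le_iff.1 (e ▸ hAM))))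
    have key : ∀ H, IsCoatom H → A ≤ H → H = N := by
      intro H hH h1
      by_cases hn : H ≤ normalizer (A : Set G)
      · exact ((hH.le_iff.1 (hn.trans hNle)).resolve_left hN.1).symm
      · obtain ⟨B, b1, b2, b3, b4⟩ := exists_nb (all A H (Cj.refl A) hH h1) hn
        exact uniq hA ih (Cj.refl A) b1 b2.symm hN
          (sup_le (le_normalizer.trans hNle) (b4.trans hNle))
          (fun H' a b _ => ⟨all _ _ (Cj.refl A) a (le_sup_left.trans b),
            all _ _ b1 a (le_sup_right.trans b)⟩) H hH (sup_le h1 b3)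
    exact hne ((key H₀ hH₀ hle).trans (key M hM hAM).symm)
  · have hR : Rl A M := ⟨hM, hAM, hc⟩
    have r1 : ∀ B, Cj A B → ∃ H, Rl B H := by
      rintro _ ⟨g, rfl⟩
      exact ⟨_, hR.conj g⟩
    have r2 : ∀ B H H', Cj A B → Rl B H → Rl B H' → H = H' := by
      rintro _ H H' ⟨g, rfl⟩ h1 h2
      have e1 : H = MulAut.conj g • M := by
        by_contra e; exact h1.2.2 (hsn' g H h1.1 h1.2.1 e)
      have e2 : H' = MulAut.conj g • M := by
        by_contra e; exact h2.2.2 (hsn' g H' h2.1 h2.2.1 e)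
      rw [e1, e2]
    have hN := norm_le hA r2 (Cj.refl A) hR
    obtain ⟨B, b1, b2, b3, b4⟩ := exists_nb (hsn H₀ hH₀ hle hne) (fun hn =>
      hne ((hH₀.le_iff.1 (hn.trans hN)).resolve_left hM.1).symm)
    obtain ⟨M', hM'⟩ := r1 B b1
    have a := adj1 hA ih r2 (Cj.refl A) b1 b2.symm hR hM' hH₀ hM hne (sup_le hle b3)
      (sup_le hAM (b4.trans hN))
    obtain ⟨-, C, c1, c2⟩ := half hA ih r2 r1 (Cj.refl A) b1 hR hM' a.2 a.1 (b4.trans hN)
    obtain ⟨d, -⟩ := half hA ih r2 r1 b1 (Cj.refl A) hM' hR a.2.symm (b4.trans hN) a.1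
    rw [inf_comm] at d
    exact c1 (c2.trans d)

theorem zs [Finite G] (A : Subgroup G) : Zs A := by
  have : ∀ n, ∀ A : Subgroup G, Nat.card G - Nat.card A = n → Zs A := by
    intro n
    induction n using Nat.strong_induction_on with
    | _ n ih =>
      intro A hn
      refine zs_step fun X hX => ih _ ?_ X rfl
      have := X.card_le_card_group
      omega
  exact this _ A rfl

end Cfsg.Agent.H3x.Fl
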