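import Mathlib
import Cfsg.Agent.H3x.Fl

/-!
If an involution `t` lies in no proper normal subgroup of the finite group `G`, then `G` is
generated by `t` and the elements of odd order inverted by `t`.
-/

set_option autoImplicit false

namespace Cfsg.Agent.H3x.Fl

open Subgroup Cfsg.Agent.H2
open scoped Pointwise

universe u

theorem odd_of_conj {G : Type*} [Group G] {t s g : G} (ht : t * t = 1) (hs : s = g * t * g⁻¹)
    (hg : g ∈ closure ({t, s} : Set G)) : Odd (orderOf (t * s)) := by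
  have hti : t⁻¹ = t := inv_eq_of_mul_eq_one_right ht
  have hss : s * s = 1 := by
    rw [hs]; calc g * t * g⁻¹ * (g * t * g⁻¹) = g * (t * t) * g⁻¹ := by group
      _ = 1 := by rw [ht]; group
  have hsi : s⁻¹ = s := inv_eq_of_mul_eq_one_right hss
  set x := t * s with hx
  set Q := zpowers (x ^ 2) with hQ
  have nrm : ∀ k : G, k * x * k⁻¹ = x⁻¹ → k * k = 1 → k ∈ normalizer (Q : Set G) := by
    intro k hk hkk
    have hki : k⁻¹ = k := inv_eq_of_mul_eq_one_right hkk
    have h1 : ∀ q ∈ Q, k * q * k⁻¹ ∈ Q := by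
      rintro _ ⟨n, rfl⟩
      refine ⟨-n, ?_⟩
      show (x ^ 2) ^ (-n) = k * (x ^ 2) ^ n * k⁻¹
      rw [← conj_zpow, ← conj_pow, hk, inv_pow, zpow_neg, inv_zpow]
    rw [mem_normalizer_iff]
    intro q
    refine ⟨h1 q, fun h => ?_⟩
    have := h1 _ h
    have e : k * (k * q * k⁻¹) * k⁻¹ = q := by
      calc k * (k * q * k⁻¹) * k⁻¹ = (k * k) * q * (k * k)⁻¹ := by group
        _ = q := by rw [hkk]; group
    rwa [e] at this
  have key : ∀ k ∈ closure ({t, s} : Set G),
      k ∈ normalizer (Q : Set G) ∧ t⁻¹ * (k * t * k⁻¹) ∈ Q := by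
    intro k hk
    induction hk using closure_induction with
    | mem y hy =>
      rcases hy with rfl | rfl
      · refine ⟨nrm _ ?_ ht, by simp⟩
        rw [hx, mul_inv_rev, hti, hsi, ← mul_assoc, ht, one_mul]
      · refine ⟨nrm _ ?_ hss, ?_⟩
        · rw [hx, mul_inv_rev, hti, hsi, mul_assoc, mul_assoc, hss, mul_one]
        · have : t⁻¹ * (y * t * y⁻¹) = x ^ 2 := by
            rw [hti, hsi, hx, sq]; simp only [mul_assoc]
          rw [this]; exact mem_zpowers _
    | one => exact ⟨one_mem _, by simp⟩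
    | mul a b _ _ ha hb =>
      refine ⟨mul_mem ha.1 hb.1, ?_⟩
      have : t⁻¹ * (a * b * t * (a * b)⁻¹) =
          (t⁻¹ * (a * t * a⁻¹)) * (a * (t⁻¹ * (b * t * b⁻¹)) * a⁻¹) := by group
      rw [this]
      exact mul_mem ha.2 ((mem_normalizer_iff.1 ha.1 _).1 hb.2)
    | inv a _ ha =>
      refine ⟨inv_mem ha.1, ?_⟩
      have : t⁻¹ * (a⁻¹ * t * a⁻¹⁻¹) = a⁻¹ * (t⁻¹ * (a * t * a⁻¹))⁻¹ * a⁻¹⁻¹ := by group
      rw [this]
      exact (mem_normalizer_iff.1 (inv_mem ha.1) _).1 (inv_mem ha.2)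
  obtain ⟨n, hn⟩ := (key g hg).2
  rw [← hs, hti, ← hx] at hn
  have h1 : x ^ (2 * n - 1) = 1 := by
    rw [zpow_sub, zpow_mul, zpow_one]
    have : (x ^ (2 : ℤ)) ^ n = x := by rw [zpow_ofNat]; exact hn
    rw [this, mul_inv_cancel]
  have h2 := orderOf_dvd_iff_zpow_eq_one.2 h1
  rw [← Nat.not_even_iff_odd]
  rintro ⟨c, hc⟩
  obtain ⟨d, hd⟩ := h2
  rw [hc] at hd
  push_cast at hd
  have : 2 * (n - c * d) = 1 := by linarith
  omega

theorem gen_odd_aux (n : ℕ) : ∀ (G : Type u) [Group G] [Finite G], Nat.card G = n →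
    ∀ (t : G), t * t = 1 → Full (zpowers t) ⊤ → ∀ L : Subgroup G, t ∈ L →
      (∀ x, Odd (orderOf x) → t * x * t = x⁻¹ → x ∈ L) → L = ⊤ := by
  induction n using Nat.strong_induction_on with
  | _ n ih =>
  intro G _ _ hn t ht hF L htL hL
  by_contra hne
  obtain ⟨M, hM, hLM⟩ := exists_coatom hne
  have hY : ∀ K, K ≠ ⊤ → Full (zpowers t) K → K ≤ M := by
    intro K hK hf
    have htK : t ∈ K := hf.1 (mem_zpowers t)
    have hlt : Nat.card K < n := by
      rw [← hn, ← card_top (G := G)]; exact card_lt le_top hK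
    have := ih _ hlt K rfl ⟨t, htK⟩ (Subtype.ext ht) ⟨le_top, fun X h1 _ h3 => by
      have h4 := hf.2 (X.map K.subtype) (zpowers_le_of_mem ⟨⟨t, htK⟩, h1 (mem_zpowers _), rfl⟩)
        (map_subtype_le X) (by
          have h5 := (map_mono (f := K.subtype) h3).trans (le_normalizer_map K.subtype)
          rwa [← MonoidHom.range_eq_map, range_subtype] at h5)
      rw [eq_top_iff]
      intro y _
      have : (y : G) ∈ X.map K.subtype := by rw [h4]; exact y.2
      obtain ⟨z, hz, e⟩ := this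
      rwa [← Subtype.ext e]⟩ (L.subgroupOf K) htL (fun x h1 h2 =>
        hL x (by rwa [orderOf_coe]) (congrArg Subtype.val h2))
    exact (subgroupOf_eq_top.1 this).trans hLM
  have hu := zs (zpowers t) hF M hM hY
  have : ∃ g : G, g * t * g⁻¹ ∉ M := by
    by_contra hc
    push Not at hc
    have h1 := hF.2 (normalClosure {t})
      (zpowers_le_of_mem (subset_normalClosure (Set.mem_singleton t))) le_top
      (by rw [normalizer_eq_top])
    have h2 : normalClosure {t} ≤ M := by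
      refine (closure_le M).2 fun y hy => ?_
      obtain ⟨a, ha, hc'⟩ := Group.mem_conjugatesOfSet_iff.1 hy
      obtain ⟨g, rfl⟩ := isConj_iff.1 hc'
      rw [Set.mem_singleton_iff.1 ha]; exact hc g
    exact hM.1 (top_le_iff.1 (h1 ▸ h2))
  obtain ⟨g, hg⟩ := this
  have htop : closure ({t, g * t * g⁻¹} : Set G) = ⊤ := by
    by_contra hc
    obtain ⟨H, hH, hle⟩ := exists_coatom hc
    have := hu H hH (zpowers_le_of_mem (hle (subset_closure (by simp))))
    exact hg (this ▸ hle (subset_closure (by simp)))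
  have hodd := odd_of_conj ht rfl (htop ▸ mem_top g)
  have hti : t⁻¹ = t := inv_eq_of_mul_eq_one_right ht
  have h1 := hL _ hodd (by
    rw [← mul_assoc t t, ht, one_mul, mul_inv_rev, hti, _root_.conj_inv, hti])
  have h2 := L.mul_mem htL h1
  rw [← mul_assoc t t, ht, one_mul] at h2
  exact hg (hLM h2)

theorem gen_odd {G : Type*} [Group G] [Finite G] {t : G} (ht : t * t = 1)
    (hF : ∀ X : Subgroup G, X.Normal → t ∈ X → X = ⊤) (L : Subgroup G) (htL : t ∈ L)
    (hL : ∀ x, Odd (orderOf x) → t * x * t = x⁻¹ → x ∈ L) : L = ⊤ :=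
  gen_odd_aux _ G rfl t ht ⟨le_top, fun X h1 _ h3 =>
    hF X (normalizer_eq_top_iff.1 (top_le_iff.1 h3)) (h1 (mem_zpowers t))⟩ L htL hL

end Cfsg.Agent.H3x.Fl
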