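import Cfsg.Agent.H3x.Max
import Cfsg.Agent.Schur.Mx

set_option autoImplicit false

/-! Large extraspecial subgroups, double covers, bounds for centralisers by refinement. -/

namespace Cfsg.Agent.H3x
open MulAction Subgroup Cfsg.Agent.Comp Cfsg.Agent.Schur Cfsg.Agent.R3 Cfsg.Agent.Fischer Matrix

variable {G : Type*} [Group G]

/-- the large extraspecial hypothesis -/
def Hyp (G : Type*) [Group G] (k : ℕ) (Ω : Type*) [Group Ω] : Prop :=
  ∃ z : G, orderOf z = 2 ∧ ∃ (Q : Subgroup (centralizer ({z} : Set G))) (_ : Q.Normal),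
    generalizedFittingSubgroup (centralizer ({z} : Set G)) = Q ∧ IsExtraspecial 2 Q ∧ Nat.card Q = k ∧
    Nonempty (centralizer ({z} : Set G) ⧸ Q ≃* Ω) ∧ ∃ g : G, (∃ hq : g * z * g⁻¹ ∈ centralizer ({z} : Set G),
      (⟨g * z * g⁻¹, hq⟩ : centralizer ({z} : Set G)) ∈ Q) ∧ g * z * g⁻¹ ≠ z

theorem hyp_of_cx [Finite G] {Q : Subgroup G} {z : G} (h : ES Q z) {k : ℕ} (hk : Nat.card Q = k)
    {U Ω : Type*} [Group U] [Group Ω] [IsSimpleGroup U] [hN : (Q.subgroupOf (centralizer {z})).Normal]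
    (e : U ≃* centralizer ({z} : Set G) ⧸ Q.subgroupOf (centralizer {z}))
    (hU : 3 ∣ Nat.card U ∨ 5 ∣ Nat.card U) (f : Nonempty (U ≃* Ω)) {l y g : G}
    (hl : l ∈ centralizer ({z} : Set G)) (hy : y ∈ Q) (hn : l * (l * y) ≠ y * (l * l)) (hg : g * z = y * g)
    (hz : y ≠ z) : Hyp G k Ω := by
  have hl' : Q ≤ centralizer {z} := fun x hx => mem_centralizer_singleton_iff.mpr (h.central x hx).eq.symm
  obtain ⟨a, b, c, -⟩ := core_of_cx h hk e hU
  have e1 : g * z * g⁻¹ = y := by rw [hg, mul_inv_cancel_right]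
  obtain ⟨f⟩ := f
  have : Fact (Nat.Prime 2) := ⟨Nat.prime_two⟩
  refine ⟨z, h.orderOf, _, hN, ?_, a ▸ b, a ▸ c, ⟨e.symm.trans f⟩, g, ⟨e1 ▸ hl' hy, ?_⟩, e1 ▸ hz⟩
  · rw [← a, Comp2.genFitting_eq_pCore_iff, a]
    have := e.isSimpleGroup_congr.mp inferInstance
    rcases (Normal.map inferInstance (QuotientGroup.mk' _) (QuotientGroup.mk'_surjective _) :
      ((centralizer ((Q.subgroupOf (centralizer {z})) : Set (centralizer ({z} : Set G)))).map
        (QuotientGroup.mk' (Q.subgroupOf (centralizer {z})))).Normal).eq_bot_or_eq_top with h1 | h1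
    · rwa [Subgroup.map_eq_bot_iff, QuotientGroup.ker_mk'] at h1
    · obtain ⟨c, hc, e2⟩ := h1.ge (mem_top (QuotientGroup.mk' _ (⟨l, hl⟩ : centralizer ({z} : Set G))))
      have h2 : (c : G)⁻¹ * l ∈ Q := (QuotientGroup.eq (s := Q.subgroupOf (centralizer {z}))).mp e2
      have h3 : ∀ x ∈ Q, l * x * l⁻¹ = x ∨ l * x * l⁻¹ = x * z := fun x hx => by
        have : _ * (c : G) = c * _ := congrArg Subtype.val (hc ⟨_, hl' (Q.mul_mem (Q.mul_mem h2 hx) (Q.inv_mem h2))⟩
          (Q.mul_mem (Q.mul_mem h2 hx) (Q.inv_mem h2)))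
        rw [show l * x * l⁻¹ = c * ((c : G)⁻¹ * l * x * ((c : G)⁻¹ * l)⁻¹) * (c : G)⁻¹ by group,
          ← this, mul_inv_cancel_right]
        exact h.conj _ h2 x hx
      have h4 : l * z * l⁻¹ = z := by rw [mem_centralizer_singleton_iff.mp hl, mul_inv_cancel_right]
      refine absurd ?_ hn
      rw [show l * (l * y) = l * (l * y * l⁻¹) * l⁻¹ * (l * l) by group]
      rcases h3 y hy with h5 | h5 <;> rw [h5]
      · rw [h5]
      · rw [show l * (y * z) * l⁻¹ = l * y * l⁻¹ * (l * z * l⁻¹) by group, h4, h5, mul_assoc y, h.zsq, mul_one]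
  · exact (e1 ▸ hy : g * z * g⁻¹ ∈ Q)

theorem gen_one (s : ℕ → G) : gen s 1 = zpowers (s 0) :=
  le_antisymm (gen_le.mpr fun x hx => by rw [Nat.lt_one_iff.mp hx]; exact mem_zpowers _)
    (zpowers_le.mpr (letter_mem_gen one_pos))

theorem nonsplit [Finite G] {z : G} (hz : orderOf z = 2) {Z : Subgroup G} (hZ : Z = zpowers z)
    {U K : Type*} [Group U] [Group K] [IsSimpleGroup U] [(Z.subgroupOf (centralizer {z})).Normal]
    (e : U ≃* centralizer ({z} : Set G) ⧸ Z.subgroupOf (centralizer {z})) (hU : ¬ (Nat.card U).Prime)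
    (f : Nonempty (U ≃* K)) {y : G} (hy : y * y = z) : IsNonsplitDoubleCover (centralizer ({z} : Set G)) K := by
  subst hZ
  have h0 : zpowers z ≤ centralizer {z} := zpowers_le.mpr (mem_centralizer_singleton_iff.mpr rfl)
  have h1 : center (centralizer ({z} : Set G)) = (zpowers z).subgroupOf (centralizer {z}) := by
    have := e.isSimpleGroup_congr.mp inferInstance
    refine le_antisymm ?_ ?_
    · rcases (Normal.map inferInstance (QuotientGroup.mk' _) (QuotientGroup.mk'_surjective _) :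
        ((center (centralizer ({z} : Set G))).map
          (QuotientGroup.mk' ((zpowers z).subgroupOf (centralizer {z})))).Normal).eq_bot_or_eq_top with h | h
      · rwa [Subgroup.map_eq_bot_iff, QuotientGroup.ker_mk'] at h
      · refine absurd ?_ hU
        let _ : CommGroup U := ⟨fun a b => e.injective (by
          obtain ⟨x, hx, h1⟩ := h.ge (mem_top (e a))
          obtain ⟨y, h2⟩ := QuotientGroup.mk'_surjective _ (e b)
          rw [map_mul, map_mul, ← h1, ← h2, ← map_mul, ← map_mul, mem_center_iff.mp hx y])⟩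
        exact IsSimpleGroup.prime_card
    · rintro ⟨x, hx⟩ ⟨k, rfl⟩
      exact mem_center_iff.mpr fun g => Subtype.ext
        ((show Commute g.1 z from mem_centralizer_singleton_iff.mp g.2).zpow_right k).eq
  have h2 : Nat.card (center (centralizer ({z} : Set G))) = 2 := by
    rw [h1, Nat.card_congr (subgroupOfEquivOfLe h0).toEquiv, Nat.card_zpowers, hz]
  obtain ⟨f⟩ := f
  refine ⟨h2, ⟨(QuotientGroup.quotientMulEquivOfEq h1).trans (e.symm.trans f)⟩, fun L hL => ?_⟩
  have h3 := sq_mem_of_index_two (hL.index_eq_card.trans h2)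
    ⟨y, mem_centralizer_singleton_iff.mpr (by rw [← hy, mul_assoc])⟩
  have h4 := congrArg Subtype.val (disjoint_def.mp hL.disjoint (h1.ge (by
    rw [mem_subgroupOf, pow_two]; exact hy ▸ mem_zpowers _)) h3)
  rw [pow_two] at h4
  rw [show z = 1 from hy.symm.trans h4, orderOf_one] at hz
  omega

theorem equiv_omega {G₀ : Type} [Group G₀] [IsSimpleGroup G₀] {s : ℕ → G₀} {L : ℕ} {R : List (List ℕ)}
    {ι : Type} [Fintype ι] [DecidableEq ι] {Q : (ι → ZMod 2) → ZMod 2} {m : ℕ → Matrix ι ι (ZMod 2)}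
    (h : IsPres s L R) (hR : ∀ w ∈ R, ∀ x ∈ w, x < L) (hp : ¬ (Nat.card G₀).Prime)
    (hm : ∀ x < L, ∃ g, glMat (isometryGroup (ZMod 2) Q) g = (m x).map (RingHom.id _)) (hs : Sat m R)
    (hL : 0 < L) (h0 : m 0 ≠ 1) (hc : Nat.card (isometryGroup (ZMod 2) Q) = 2 * Nat.card G₀) :
    Nonempty (G₀ ≃* Omega (ZMod 2) Q) := by
  refine equiv_mat h hR ((glMat_injective _).comp Subtype.val_injective) (fun _ _ h => h)
    (mem_comm h hR hp (glMat_injective _) hm hs) hs hL h0 ?_
  obtain ⟨e, -⟩ := h.equiv_of_simple hR (liftS (glMat _) fun x => (m x).map (RingHom.id _))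
    (sat_liftS (glMat_injective _) hm hR (hs.mapM (RingHom.id _).mapMatrix.toMonoidHom)) hL fun h1 => h0 (by
      have h2 := liftS_val (s := fun x => (m x).map (RingHom.id _)) (hm 0 hL)
      rw [h1, map_one] at h2
      exact h2.symm)
  rw [Nat.card_congr e.toEquiv] at hc ⊢
  rw [← index_mul_card (gen _ L)] at hc
  have h2 := Nat.eq_of_mul_eq_mul_right Nat.card_pos hc
  refine card_le_of_le (commutator_le.mpr fun a _ b _ => ?_)
  simp only [commutatorElement_def, mul_mem_iff_of_index_two h2, inv_mem_iff]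
  tauto

theorem quadFormMinus_eq (n : ℕ) (v : (Fin n ⊕ Fin n) ⊕ Fin 2 → ZMod 2) : quadFormMinus n (ZMod 2) 1 1 v =
    v ⬝ᵥ ((fromBlocks (fromBlocks 0 1 0 0) 0 0 !![1, 1; 0, 1] : Matrix _ _ (ZMod 2)).map (RingHom.id _) *ᵥ v) := by
  simp [quadFormMinus, fromBlocks_mulVec, dotProduct, Fintype.sum_sum_type, sq, mulVec, Fin.sum_univ_two,
    Matrix.one_apply]
  ring

/-- the normal words -/
def nw : ℕ → List (List ℕ) := Nat.rec [[]] fun j ih => ih ++ ih.map (j :: ·)

theorem mem_nw [Finite G] {s : ℕ → G} {k : ℕ} (h1 : ∀ j < k, ∀ i < j, s j * s i * (s j)⁻¹ ∈ gen s j)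
    (h2 : ∀ j < k, s j * s j ∈ gen s j) : ∀ x ∈ gen s k, ∃ w ∈ nw k, ev s w = x := by
  induction k with
  | zero => exact fun x hx => ⟨[], List.mem_singleton_self _, (mem_bot.mp ((gen_le.mpr (by simp)) hx)).symm⟩
  | succ j ih =>
    replace ih := ih (fun a h => h1 a (by omega)) fun a h => h2 a (by omega)
    have h4 : ∀ h ∈ gen s j, s j * h * (s j)⁻¹ ∈ gen s j := fun g hg =>
      (gen_le (K := (gen s j).comap (MulAut.conj (s j)).toMonoidHom)).mpr (h1 j (by omega)) hg
    replace h2 := h2 j (by omega)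
    have h3 : ∀ h ∈ gen s j, (s j)⁻¹ * h * s j ∈ gen s j := fun h hh => by
      have := h4 _ (mul_mem (mul_mem (inv_mem h2) hh) h2)
      rwa [show s j * ((s j * s j)⁻¹ * h * (s j * s j)) * (s j)⁻¹ = (s j)⁻¹ * h * s j by group] at this
    have k : ∀ x ∈ gen s (j + 1), x ∈ (gen s j : Set G) ∪ (s j * ·) '' gen s j := fun x hx => by
      refine genW_induction (p := fun x => x ∈ (gen s j : Set G) ∪ (s j * ·) '' gen s j)
        (Or.inl (one_mem _)) (fun w hw g hg => ?_) (fun w hw g hg => ?_) hx <;>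
        obtain ⟨y, hy, rfl⟩ := mem_letters.mp hw <;> rw [ev_single] <;>
        rcases Nat.lt_succ_iff_lt_or_eq.mp hy with hy | rfl <;> rcases hg with hg | ⟨g, hg, rfl⟩
      · exact Or.inl (mul_mem (letter_mem_gen hy) hg)
      · exact Or.inr ⟨_, mul_mem (h3 _ (letter_mem_gen hy)) hg, by group⟩
      · exact Or.inr ⟨_, hg, rfl⟩
      · exact Or.inl (mul_assoc (s y) _ _ ▸ mul_mem h2 hg)
      · exact Or.inl (mul_mem (inv_mem (letter_mem_gen hy)) hg)
      · exact Or.inr ⟨_, mul_mem (h3 _ (inv_mem (letter_mem_gen hy))) hg, by group⟩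
      · exact Or.inr ⟨_, mul_mem (inv_mem h2) hg, by group⟩
      · exact Or.inl (by simpa using hg)
    intro x hx
    rcases k x hx with h | ⟨y, h, rfl⟩ <;> obtain ⟨w, hw, rfl⟩ := ih _ h
    · exact ⟨w, List.mem_append_left _ hw, rfl⟩
    · exact ⟨j :: w, List.mem_append_right _ (List.mem_map_of_mem hw), rfl⟩

/-- `m` and its preimages under the powers of `z` -/
noncomputable def addZ (R : List Net) (z : List Nat) (c : List Nat → Bool) (k : Nat) : Nat → List Nat → Bool :=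
  @Nat.rec (fun _ => Nat → List Nat → Bool) (fun m L => c (m :: L))
    (fun _ ih m L => frc (runZ (nat_lit 1) R z m) fun m' => ih m' (m :: L)) k

/-- the refinement for the centraliser of `z` -/
noncomputable def cenC (n B D D' k : Nat) (R : List Net) (z u : List Nat) (ys : List (Nat × Nat))
    (P : List (Nat × List Nat)) : List Nat → Nat → Bool :=
  @List.rec _ (fun _ => List Nat → Nat → Bool) (autC n B D R u ys [])
    (fun i _ ih L bd => band (Nat.blt i.1 n) (band (mem1 R i.2 (pt (nat_lit 0)) i.1)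
      (frc (Nat.div bd (popc B (cell n L i.1))) fun bd => frc (runZ (nat_lit 1) R i.2 D) fun r =>
        frc (runZ (nat_lit 1) R i.2 D') fun r' => frc (pt i.1) fun p =>
          addZ R z (addZ R z (addZ R z (fun L => ih L bd) k p) k r') k r L))) P

section
variable {M A : Subgroup (Equiv.Perm ℕ)} {n B D D' k : ℕ} {R : List Net} {z : List ℕ}

theorem addZ_sound (hR : TOK n R) (hz : ∀ σ ∈ A, σ * ev (sig R) z = ev (sig R) z * σ) (hb : A ≤ Bd n)
    {c : List ℕ → Bool} {p : Prop}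
    (hc : ∀ L, (∀ m ∈ L, ∀ σ ∈ A, ∀ i < n, m.testBit (σ i) = m.testBit i) → c L = true → p) :
    ∀ k m L, (∀ σ ∈ A, ∀ i < n, m.testBit (σ i) = m.testBit i) →
      (∀ m ∈ L, ∀ σ ∈ A, ∀ i < n, m.testBit (σ i) = m.testBit i) → addZ R z c k m L = true → p := by
  intro k
  induction k with
  | zero => exact fun m L h1 h2 => hc _ (List.forall_mem_cons.mpr ⟨h1, h2⟩)
  | succ k ih =>
    intro m L h1 h2 h
    change frc _ (fun m' => addZ R z c k m' (m :: L)) = true at h
    rw [frc_eq] at h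
    refine ih _ _ (fun σ hσ i hi => ?_) (List.forall_mem_cons.mpr ⟨h1, h2⟩) h
    rw [runZ_eq, testBit_runW1 hR _ _ hi, testBit_runW1 hR _ _ (Bd.lt (hb hσ) hi), ← Equiv.Perm.mul_apply,
      ← hz σ hσ, Equiv.Perm.mul_apply, h1 σ hσ _ (Bd.lt (hR.ev_mem z) hi)]

theorem cenC_sound (X : Gr M n B D R) (X' : Gr M n B D' R) {u : List ℕ} {ys : List (ℕ × ℕ)}
    (hb : IsBase M (ys.map Prod.fst)) (P : List (ℕ × List ℕ)) :
    ∀ (L : List ℕ) (bd : ℕ) (A : Subgroup (Equiv.Perm ℕ)), A ≤ M →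
    (∀ σ ∈ A, σ * ev (sig R) z = ev (sig R) z * σ) →
    (∀ m ∈ L, ∀ σ ∈ A, ∀ i < n, m.testBit (σ i) = m.testBit i) → cenC n B D D' k R z u ys P L bd = true →
    Nat.card A ≤ bd := by
  induction P with
  | nil => exact fun L bd A hA _ => autC_sound X hb [] L bd A hA
  | cons e P ih =>
    obtain ⟨x, w⟩ := e
    intro L bd A hA hz hL h
    change band _ (band _ (frc _ fun bd => frc _ fun r => frc _ fun r' => frc _ fun p => addZ R z
      (addZ R z (addZ R z (fun L => cenC n B D D' k R z u ys P L bd) k p) k r') k r L)) = true at h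
    simp only [band_eq, frc_eq, Nat.blt_eq] at h
    have := finite_of_le_Bd (hA.trans X.bd)
    have a1 : A ⊓ stabilizer _ x ≤ M := inf_le_left.trans hA
    have a2 : ∀ σ ∈ A ⊓ stabilizer _ x, σ * ev (sig R) z = ev (sig R) z * σ := fun σ hσ => hz σ hσ.1
    have row : ∀ {E}, Gr M n B E R → ∀ σ ∈ A ⊓ stabilizer _ x, ∀ i < n,
        (runZ (nat_lit 1) R w E).testBit (σ i) = (runZ (nat_lit 1) R w E).testBit i := fun Y σ hσ i hi => by
      rw [Bool.eq_iff_iff, Y.rowW h.1 h.2.1 hi, Y.rowW h.1 h.2.1 (Bd.lt (X.bd (a1 hσ)) hi),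
        ← adj0_smul (a1 hσ) x i, show σ x = x from hσ.2]
    have h1 := addZ_sound X.ok a2 (a1.trans X.bd) (fun L hL => addZ_sound X.ok a2 (a1.trans X.bd)
      (fun L hL => addZ_sound X.ok a2 (a1.trans X.bd) (fun L hL => ih L _ _ a1 a2 hL) k _ L (fun σ hσ i _ => by
        rw [testBit_pt, testBit_pt, decide_eq_decide, ← σ.injective.eq_iff (a := x) (b := i),
          show σ x = x from hσ.2]) hL) k _ L (row X') hL) k _ L (row X) (fun m hm σ hσ => hL m hm σ hσ.1) h.2.2
    have h2 : (orbit A x).ncard ≤ popc B (cell n L x) := by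
      rw [← ncard_bset X.hB (cell_lt n L x)]
      refine Set.ncard_le_ncard ?_ ((Set.finite_lt_nat n).subset fun _ h => h.1)
      rintro _ ⟨σ, rfl⟩
      exact ⟨Bd.lt (X.bd (hA σ.2)) h.1, (testBit_cell ..).mpr
        ⟨Bd.lt (X.bd (hA σ.2)) h.1, fun m hm => hL m hm _ σ.2 x h.1⟩⟩
    rw [← ((stabilizer _ x).subgroupOf A).index_mul_card, ← Subgroup.relIndex, relIndex_stabilizer,
      ← Subgroup.card_map_of_injective A.subtype_injective, Subgroup.subgroupOf_map_subtype, inf_comm]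
    exact (Nat.mul_le_mul h2 h1).trans (Nat.mul_div_le _ _)

end

variable {φ : G →* Equiv.Perm ℕ} {n m : ℕ} {T : List Net}

theorem PR.centC (h : PR φ n m T) {B D D' k bd : ℕ} (X : Gr φ.range n B D T) (X' : Gr φ.range n B D' T)
    {z u : List ℕ} {ys : List (ℕ × ℕ)} (hb : IsBase φ.range (ys.map Prod.fst)) {P : List (ℕ × List ℕ)}
    (hc : frc (moved n B T z B) (fun S => cenC n B D D' k T z u ys P [S] bd) = true) {t : G}
    (ht : φ t = ev (sig T) z) : Nat.card (centralizer ({t} : Set G)) ≤ bd := by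
  have k : ∀ σ ∈ (centralizer ({t} : Set G)).map φ, σ * ev (sig T) z = ev (sig T) z * σ := by
    rintro _ ⟨c, hc, rfl⟩
    rw [← ht, ← map_mul, ← map_mul, mem_centralizer_singleton_iff.mp hc]
  rw [← card_map_of_injective h.inj]
  refine cenC_sound X X' hb P _ _ _ (map_le_range _ _) k (fun m hm σ hσ i hi => ?_) (frc_eq _ _ ▸ hc)
  rw [List.mem_singleton.mp hm, Bool.eq_iff_iff, testBit_moved h.ok X.hB _ hi,
    testBit_moved h.ok X.hB _ (Bd.lt (X.bd (map_le_range _ _ hσ)) hi), ← Equiv.Perm.mul_apply, ← k σ hσ,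
    Equiv.Perm.mul_apply, Ne, σ.apply_eq_iff_eq]

theorem PR.neq (h : PR φ n m T) {s : ℕ → G} (hs : ∀ w, φ (ev s w) = ev (sig T) w) {u v : List ℕ} {p q r : ℕ}
    (hp : band (band (Nat.blt p n) (!Nat.beq q r)) (band (mem1 T u (pt q) p) (mem1 T v (pt r) p)) = true) :
    ev s u ≠ ev s v := fun e => by
  simp only [band_eq, Nat.blt_eq, Bool.not_eq_true', ← Bool.not_eq_true, Nat.beq_eq] at hp
  exact hp.1.2 (by rw [← mem1_pt h.ok hp.1.1 hp.2.1, ← mem1_pt h.ok hp.1.1 hp.2.2, ← hs, ← hs, e])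

end Cfsg.Agent.H3x
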