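import Cfsg.Agent.H3x.Hyp

set_option autoImplicit false

/-! Groups with one class of involutions; double covers as centralisers. -/

namespace Cfsg.Agent.H3x
open MulAction Subgroup Cfsg.Agent.Comp Cfsg.Agent.Schur Cfsg.Agent.R3

variable {G : Type*} [Group G] {φ : G →* Equiv.Perm ℕ} {n m : ℕ} {T : List Net}

theorem conj_into [Finite G] {H : Subgroup G} (h : ¬ 2 ∣ H.index) {x : G} (hx : orderOf x = 2) :
    ∃ y ∈ H, IsConj x y := by
  have : Fact (Nat.Prime 2) := ⟨Nat.prime_two⟩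
  obtain ⟨q, hq⟩ := (IsPGroup.of_card (G := zpowers x) (p := 2) (n := 1)
    (by rw [Nat.card_zpowers, hx]; rfl)).nonempty_fixed_point_of_prime_not_dvd_card (G ⧸ H) h
  obtain ⟨g, rfl⟩ := QuotientGroup.mk_surjective q
  refine ⟨g⁻¹ * x * g⁻¹⁻¹, ?_, isConj_iff.mpr ⟨_, rfl⟩⟩
  simpa [mul_assoc] using QuotientGroup.eq.mp (hq ⟨x, mem_zpowers x⟩).symm

/-- the equation says that `a` conjugates `u` to a word in the letters below `j` -/
def cjB (j a : ℕ) (u : List ℕ) (e : List ℕ × List ℕ) : Bool :=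
  e.1 == a :: u && e.2 == e.2.dropLast ++ [a] && e.2.dropLast.all (· < j)

theorem cjB_sound {s : ℕ → G} {j a : ℕ} {u : List ℕ} {e : List ℕ × List ℕ} (h : cjB j a u e = true)
    (he : ev s e.1 = ev s e.2) : s a * ev s u * (s a)⁻¹ ∈ gen s j := by
  simp only [cjB, Bool.and_eq_true, beq_iff_eq, List.all_eq_true, decide_eq_true_eq] at h
  rw [h.1.1, h.1.2, ev_append, ev_single, ev_cons] at he
  rw [he, mul_inv_cancel_right]
  exact ev_mem fun y hy => letter_mem_gen (h.2 y hy)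

theorem PR.words (h : PR φ n m T) {s : ℕ → G} (hs : ∀ w, φ (ev s w) = ev (sig T) w) {k : ℕ}
    {E : List (List ℕ × List ℕ)} (hE : ∀ e ∈ E, ev (sig T) e.1 = ev (sig T) e.2)
    (h1 : ∀ j < k, (∀ i < j, E.any (cjB j j [i]) = true) ∧ ∃ e ∈ E, e.1 = [j, j] ∧ ∀ x ∈ e.2, x < j) :
    ∀ x ∈ gen s k, ∃ w ∈ nw k, ev s w = x := by
  have := h.finite
  have e1 : ∀ e ∈ E, ev s e.1 = ev s e.2 := fun e he => h.inj (by rw [hs, hs, hE e he])
  refine mem_nw (fun j hj i hi => ?_) fun j hj => ?_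
  · obtain ⟨e, he, h2⟩ := List.any_eq_true.mp ((h1 j hj).1 i hi)
    simpa using cjB_sound h2 (e1 e he)
  · obtain ⟨e, he, h2, h3⟩ := (h1 j hj).2
    have := e1 e he
    rw [h2, ev_cons, ev_single] at this
    exact this ▸ ev_mem fun y hy => letter_mem_gen (h3 y hy)

theorem PR.one (h : PR φ n m T) {k : ℕ} {E : List (List ℕ × List ℕ)}
    (hE : ∀ e ∈ E, ev (sig T) e.1 = ev (sig T) e.2)
    (h1 : ∀ j < k, (∀ i < j, E.any (cjB j j [i]) = true) ∧ ∃ e ∈ E, e.1 = [j, j] ∧ ∀ x ∈ e.2, x < j)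
    {c : ℕ} (h2 : (nw k).length = c) (h3 : c ≤ Nat.card (gen (sig T) k)) (h4 : ¬ 2 * c ∣ n * m) {bs : List ℕ}
    (h5 : ∀ w ∈ nw k, w = [] ∨ (∃ p ∈ bs, mvB n T (w ++ w) p = true) ∨
      ∃ e ∈ E, e.1 = e.1.dropLast ++ [0] ∧ e.2 = w ++ e.1.dropLast) :
    ∀ x y : G, orderOf x = 2 → orderOf y = 2 → IsConj x y := by
  classical
  have := h.finite
  obtain ⟨s, a1, a2, a3, a4⟩ := h.lift
  have a5 := h.words a1 hE h1
  have a6 : Nat.card (gen s k) = c := le_antisymm (by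
    refine (Set.ncard_le_ncard (t := ((nw k).map (ev s)).toFinset) fun x hx => ?_).trans ?_
    · simpa using a5 x hx
    · rw [Set.ncard_coe_finset, ← h2, ← List.length_map (ev s)]; exact List.toFinset_card_le _)
    (h3.trans (a4 _).ge)
  have k : ∀ x : G, orderOf x = 2 → IsConj (s 0) x := fun x hx => by
    obtain ⟨y, hy, e⟩ := conj_into (H := gen s k)
      (fun d => h4 (by rw [← h.card, ← (gen s k).index_mul_card, a6]; exact mul_dvd_mul_right d c)) hx
    obtain ⟨w, hw, rfl⟩ := a5 y hy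
    have o : orderOf (ev s w) = 2 := by
      obtain ⟨g, hg⟩ := isConj_iff.mp e
      rw [← hg, ← hx]; exact (MulAut.conj g).orderOf_eq x
    rcases h5 w hw with rfl | ⟨p, -, h6⟩ | ⟨e', he, h6, h7⟩
    · simp at o
    · exact absurd (by rw [ev_append, ← pow_two, ← o, pow_orderOf_eq_one]) (a3 _ _ h6)
    · have := a2 E hE e' he
      rw [h7, h6, ev_append, ev_append, ev_single, List.dropLast_concat] at this
      exact (isConj_iff.mpr ⟨_, by rw [this, mul_inv_cancel_right]⟩).trans e.symm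
  exact fun x y hx hy => (k x hx).symm.trans (k y hy)

theorem PR.dc (h : PR φ n m T) {B : ℕ} (hB : n ≤ 2 ^ B) (hn : 0 < n) {Th : List Net} {idx : List ℕ}
    (hT : Th = idx.map (nth Net.nil T)) {o p a N : ℕ} (ho : idx.length = o) {wk : List ℕ}
    (hc : cenB n B p T Th o [0] wk a N = true) {E : List (List ℕ × List ℕ)}
    (hE : ∀ e ∈ E, ev (sig T) e.1 = ev (sig T) e.2) {L : ℕ} {U : Type} [Group U] [IsSimpleGroup U]
    {u : ℕ → U} {RU : List (List ℕ)} (hp : IsPres u L RU) (hR : ∀ w ∈ RU, ∀ x ∈ w, x < L) {v : List ℕ}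
    (h1 : ([0, 0], []) ∈ E ∧ (v ++ v, [0]) ∈ E ∧ (∀ x < L, E.any (cjB 1 (1 + x) [0]) = true ∧ ([1 + x, 0], [0, 1 + x]) ∈ E) ∧
      ∀ r ∈ RU, (r.map (1 + ·), []) ∈ E ∨ (r.map (1 + ·), [0]) ∈ E) {p0 p4 c x : ℕ} (hx : x < L)
    (h0 : band (mvB n T [0] p0) (band (mvB n T [1 + x] p4) (mvB n T [1 + x, 0] p4)) = true) (hU : Nat.card U = c)
    (hc' : ¬ c.Prime) (hN : (n - a) * m < 2 * (2 * c) * N) {K : Type*} [Group K] (f : Nonempty (U ≃* K)) :
    ∃ t : G, orderOf t = 2 ∧ IsNonsplitDoubleCover (centralizer ({t} : Set G)) K := by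
  have := h.finite
  obtain ⟨s, a1, a2, a3, -⟩ := h.lift
  replace a2 := a2 E hE
  simp only [band_eq] at h0
  have z : s 0 * s 0 = 1 := by simpa using a2 _ h1.1
  have o : orderOf (s 0) = 2 := Inv.two_of_mul_self (by simpa using a3 _ _ h0.1) z
  obtain ⟨-, hN, e, -⟩ := quot_gen (s := s) (a := 1) hp hR (C := centralizer {s 0}) (fun y hy => by
      rcases Nat.eq_zero_or_pos y with rfl | h
      · exact mem_centralizer_singleton_iff.mpr rfl
      · obtain ⟨y, rfl⟩ := Nat.exists_eq_add_of_le h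
        exact mem_centralizer_singleton_iff.mpr (by simpa using a2 _ (h1.2.2.1 y (by omega)).2))
    (fun y hy j hj => by
      obtain ⟨e, he, h2⟩ := List.any_eq_true.mp (h1.2.2.1 y hy).1
      simpa [Nat.lt_one_iff.mp hj] using cjB_sound h2 (a2 e he))
    (fun r hr => by
      rcases h1.2.2.2 r hr with h | h <;> rw [a2 _ h]
      exacts [one_mem _, ev_mem (by simpa using letter_mem_gen one_pos)]) (v := [x]) (by simpa using hx)
    (fun h => by
      rw [gen_one, Fischer.mem_zpowers_two z] at h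
      rcases h with h | h
      · exact a3 _ _ h0.2.1 h
      · exact a3 _ _ h0.2.2 (by simp_all))
    (by
      rw [gen_one, Nat.card_zpowers, o, hU]
      exact lt_of_mul_lt_mul_right ((h.cent hB hn hT ho hc (t := s 0) (by simpa using a1 [0])).trans_lt hN)
        (Nat.zero_le _))
  exact ⟨s 0, o, nonsplit o (gen_one s) e (hU ▸ hc') f (y := ev s v) (by simpa using a2 _ h1.2.1)⟩

end Cfsg.Agent.H3x
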